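import Cfsg.Agent.H204.RI.Trans
import Cfsg.Agent.S2184

/-!
# The groups `²F₄(q)` and the Tits group (helper204, for S3126)
-/

set_option autoImplicit false
set_option linter.unusedSectionVars false

namespace Cfsg.Agent.H204.RI

open Subgroup
open Cfsg.Agent.KFacts.TwF4 Cfsg.Agent.KFacts.TwF4.Inv Cfsg.Agent.H84.TwF4Two Cfsg.Agent.S2184
open Cfsg.Agent.SplitTwo Cfsg.Agent.SplitTwo.ZS Cfsg.Agent.TitsThree.RankTwoZ
open Cfsg.Agent.KFacts.TwF4.Arc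
open Cfsg.Agent.ChevalleyStructure.TwF4.Groups Cfsg.Agent.ChevalleyStructure.TwF4.TwistedFix
open Cfsg.Agent.ChevalleyStructure.TwF4.BN
open Cfsg.Agent.Octagon.KSys Cfsg.Agent.KFacts.TwF4.Inst

universe u

section abs

variable {F : Type*} [Field F] {σ : F →+* F} {G : Type u} [Group G] (S : Cfsg.Agent.KFacts.TwF4.Full σ G)

theorem o3_ne_one : S.o 3 1 ≠ 1 := fun h => one_ne_zero (S.o_eq_one h)

theorem zz_one : Cj (S.o 3 1) (S.e 4 0 1 * S.e 2 0 1) := by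
  have h := zz_conj S (p := (1 : F)) (v := 1) one_ne_zero one_ne_zero
  simpa only [map_one, mul_one] using h

theorem e4_ne_e2 : S.e 4 0 1 ≠ S.e 2 0 1 := by
  intro h
  obtain ⟨k, hk⟩ := zz_one S
  rw [h, z_sq] at hk
  apply o3_ne_one S
  have : S.o 3 1 = k⁻¹ * (k * S.o 3 1 * k⁻¹) * k := by group
  rw [this, hk]; group

theorem o0_ne_o4 : S.o 0 1 ≠ S.o 4 1 := by
  intro h
  have h1 : S.n1 = S.o 0 1 := by
    rw [S.n1_word, ← h, o_sq, one_mul]
  have h2 : S.e 4 0 1 = S.e 1 0 1 := by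
    have h3 := S.n1_e 1 0 1
    have h4 := S.o_e1 0 1 0 1
    rw [zero_add] at h4
    rw [h1, h4, mul_inv_cancel_right] at h3
    rw [h3]
    congr 1
  have key : ∀ n : ℕ, S.e ((1 : ZMod 8) + n + 3) 0 1 = S.e ((1 : ZMod 8) + n) 0 1 := by
    intro n
    induction n with
    | zero =>
      rw [Nat.cast_zero, add_zero]
      exact h2
    | succ n ih =>
      have h5 := congrArg (fun x => S.rot * x * S.rot⁻¹) ih
      simp only [S.rot_e] at h5
      push_cast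
      have e1 : (1 : ZMod 8) + (n + 1) + 3 = 1 + n + 3 + 1 := by ring
      have e2 : (1 : ZMod 8) + (n + 1) = 1 + n + 1 := by ring
      rw [e1, e2]; exact h5
  -- `2 → 5 → 8 = 0 → 3 → 6 → 1 → 4`
  have a25 : S.e 5 0 1 = S.e 2 0 1 := by
    have := key 1
    rwa [show (1 : ZMod 8) + (1 : ℕ) + 3 = 5 by decide, show (1 : ZMod 8) + (1 : ℕ) = 2 by decide] at this
  have a50 : S.e 0 0 1 = S.e 5 0 1 := by
    have := key 4
    rwa [show (1 : ZMod 8) + (4 : ℕ) + 3 = 0 by decide, show (1 : ZMod 8) + (4 : ℕ) = 5 by decide] at this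
  have a03 : S.e 3 0 1 = S.e 0 0 1 := by
    have := key 7
    rwa [show (1 : ZMod 8) + (7 : ℕ) + 3 = 3 by decide, show (1 : ZMod 8) + (7 : ℕ) = 0 by decide] at this
  have a36 : S.e 6 0 1 = S.e 3 0 1 := by
    have := key 2
    rwa [show (1 : ZMod 8) + (2 : ℕ) + 3 = 6 by decide, show (1 : ZMod 8) + (2 : ℕ) = 3 by decide] at this
  have a61 : S.e 1 0 1 = S.e 6 0 1 := by
    have := key 5
    rwa [show (1 : ZMod 8) + (5 : ℕ) + 3 = 1 by decide, show (1 : ZMod 8) + (5 : ℕ) = 6 by decide] at this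
  apply e4_ne_e2 S
  rw [h2, a61, a36, a03, a50, a25]

theorem o04_cube : (S.o 0 1 * S.o 4 1) ^ 3 = 1 := by
  have h1 := S.n1_word
  have h2 := n1_word' S
  have h3 : S.n1 * S.n1 = 1 := by
    rw [h1]
    calc S.o 0 1 * S.o 4 1 * S.o 0 1 * (S.o 0 1 * S.o 4 1 * S.o 0 1)
        = S.o 0 1 * S.o 4 1 * (S.o 0 1 * S.o 0 1) * S.o 4 1 * S.o 0 1 := by group
      _ = S.o 0 1 * (S.o 4 1 * S.o 4 1) * S.o 0 1 := by rw [o_sq, mul_one]; group
      _ = 1 := by rw [o_sq, mul_one, o_sq]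
  calc (S.o 0 1 * S.o 4 1) ^ 3 = (S.o 0 1 * S.o 4 1 * S.o 0 1) * (S.o 4 1 * S.o 0 1 * S.o 4 1) := by
        rw [pow_succ, pow_two]; group
    _ = S.n1 * S.n1 := by rw [← h1, ← h2]
    _ = 1 := h3

/-- the common argument -/
theorem TwF4_false (hall : ∀ t : G, t * t = 1 → t ≠ 1 → Cj t (S.e 0 0 1) ∨ Cj t (S.o 0 1)) {N : Subgroup G}
    (heN : ∀ a, S.e a 0 1 ∈ N) (hoN : ∀ a, S.o a 1 ∈ N)
    (hce : ∀ g : N, Cj (g : G) (S.e 0 0 1) → IsConj g ⟨_, heN 0⟩)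
    (hco : ∀ g : N, Cj (g : G) (S.o 0 1) → IsConj g ⟨_, hoN 0⟩)
    {D : Set N} (h : Full D) : False := by
  obtain ⟨d, hd⟩ := h.ne
  have hall' : ∀ d ∈ D, Cj (d : G) (S.e 0 0 1) ∨ Cj (d : G) (S.o 0 1) := by
    intro d hd
    refine hall _ (congrArg Subtype.val (h.sq hd)) fun h1 => h.toWC.ne_one hd (Subtype.ext h1)
  have ecj : ∀ a : ZMod 8, Cj (S.e a 0 1) (S.e 0 0 1) := by
    intro a
    have := e_cj (S := S) (a.val : ℤ) 0 (0 : F) 1
    rwa [Int.cast_natCast, ZMod.natCast_zmod_val, Int.cast_zero] at this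
  have ocj : ∀ a : ZMod 8, Cj (S.o a 1) (S.o 0 1) := by
    intro a
    have := o_cj (S := S) (a.val : ℤ) 0 (1 : F)
    rwa [Int.cast_natCast, ZMod.natCast_zmod_val, Int.cast_zero] at this
  have conj_mem : ∀ {x y : N}, x ∈ D → IsConj x y → y ∈ D := by
    intro x y hx hxy
    obtain ⟨g, hg⟩ := isConj_iff.1 hxy
    rw [← hg]; exact h.conj x hx g
  rcases hall' d hd with h1 | h1
  · -- `D` is the class of `e 0 0 1`
    have h0 : (⟨_, heN 0⟩ : N) ∈ D := conj_mem hd (hce d h1)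
    have ha : ∀ a, (⟨_, heN a⟩ : N) ∈ D := fun a => conj_mem h0 (hce ⟨_, heN a⟩ (ecj a)).symm
    have hc : Commute (⟨_, heN 4⟩ : N) ⟨_, heN 2⟩ := by
      apply Subtype.ext
      have := S.e_e2 2 0 1 0 1
      exact this.symm
    have h2 := h.mul _ (ha 4) _ (ha 2) (fun hh => e4_ne_e2 S (congrArg Subtype.val hh)) hc
    obtain ⟨g, hg⟩ := h.cls _ h2 _ h0
    have h3 : Cj (S.e 4 0 1 * S.e 2 0 1) (S.e 0 0 1) := ⟨g, congrArg Subtype.val hg⟩
    exact not_cj S ((ocj 3).symm.trans ((zz_one S).trans h3)).symm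
  · have h0 : (⟨_, hoN 0⟩ : N) ∈ D := conj_mem hd (hco d h1)
    have ha : ∀ a, (⟨_, hoN a⟩ : N) ∈ D := fun a => conj_mem h0 (hco ⟨_, hoN a⟩ (ocj a)).symm
    have c1 : Commute (⟨_, hoN 0⟩ : N) ⟨_, hoN 2⟩ := Subtype.ext (S.o_o2 0 1 1)
    have c2 : Commute (⟨_, hoN 4⟩ : N) ⟨_, hoN 2⟩ := Subtype.ext (S.o_o2 2 1 1).symm
    have h2 := h.toWC.eq_of_odd (ha 2) (ha 0) (ha 4) c1 c2 (n := 3) (by decide) (Subtype.ext (o04_cube S))
    exact o0_ne_o4 S (congrArg Subtype.val h2)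

theorem TwF4_false_index_two (hall : ∀ t : G, t * t = 1 → t ≠ 1 → Cj t (S.e 0 0 1) ∨ Cj t (S.o 0 1)) {N : Subgroup G}
    (hN : N.index = 2) (h2 : ∀ x : F, x = 0 ∨ x = 1) {X : Type*} [Group X] {D : Set X} (h' : Full D) (e : X ≃* N) :
    False := by
  have hc := e_not_mem (S := S) hN h2
  have h := h'.map_equiv e
  refine TwF4_false S hall (N := N) (fun a => z_mem_N hN a) (fun a => o_mem_N hN a 1) ?_ ?_ h
  · intro g hg
    refine cj_in (z := ⟨_, z_mem_N hN 0⟩) hN hc ?_ hg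
    show S.e 0 1 0 * S.e 0 0 1 = S.e 0 0 1 * S.e 0 1 0
    rw [S.e_mul, S.e_mul, map_zero, mul_zero, zero_mul, add_zero, add_zero, add_zero, zero_add]
  · intro g hg
    refine cj_in (z := ⟨_, o_mem_N hN 0 1⟩) hN hc ?_ hg
    exact S.e_o0 0 1 0 1

end abs

/-- the classes of involutions of `²F₄(q)` -/
theorem all_inv {K : Type*} [Field K] [Fintype K] [CharP K 2] {m : ℕ} {φ : K →+* K}
    (hK : Fintype.card K = 2 ^ (2 * m + 1)) (hφ : Rln φ (2 ^ m)) :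
    ∀ t : ↥(Cfsg.Lie.twistedF4 K (2 ^ m)), t * t = 1 → t ≠ 1 → Cj t ((full hK hφ).e 0 0 1) ∨ Cj t ((full hK hφ).o 0 1) := by
  have hfin : Finite (GL Cfsg.Lie.chevF4.Idx K) := inferInstance
  rcases Nat.eq_zero_or_pos m with rfl | hm
  · exact all_two hK hφ
  · intro t ht ht1
    have hF : ∃ c : Kˣ, c ≠ 1 := by
      classical
      have h1 : 1 < Fintype.card Kˣ := by
        rw [Fintype.card_units, hK]
        have : 2 ^ 3 ≤ 2 ^ (2 * m + 1) := Nat.pow_le_pow_right (by norm_num) (by omega)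
        omega
      exact Fintype.exists_ne_of_one_lt_card h1 1
    rcases SylU.classes (full hK hφ) hF rfl ht ht1 with ⟨u, hu, h⟩ | ⟨u, hu, h⟩
    · exact Or.inl (h.trans (torus_e _ hu))
    · exact Or.inr (h.trans (torus_o _ hu))

theorem Full.not_TwF4 {G : Type*} [Group G] {D : Set G} (F : Full D) (hG : Cfsg.Lie.Iso2F4 G) : False := by
  obtain ⟨K, i1, i2, m, -, hK, ⟨e⟩⟩ := hG
  have hchar := Cfsg.Agent.ChevalleyStructure.TwF4.Twisted.charP_two hK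
  obtain ⟨φ, hφ⟩ := exists_rln hK
  set S := full hK hφ
  have F1 := F.map_equiv (e.trans Subgroup.topEquiv.symm)
  refine TwF4_false S (all_inv hK hφ) (N := ⊤) (fun a => mem_top _) (fun a => mem_top _) ?_ ?_ F1
  · rintro g ⟨k, hk⟩
    exact isConj_iff.2 ⟨⟨k, mem_top _⟩, Subtype.ext hk⟩
  · rintro g ⟨k, hk⟩
    exact isConj_iff.2 ⟨⟨k, mem_top _⟩, Subtype.ext hk⟩

theorem Full.not_Tits {G : Type*} [Group G] {D : Set G} (F : Full D) (hG : Cfsg.Lie.IsoTits G) : False := by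
  obtain ⟨e⟩ := hG
  have hK0 : Fintype.card (ZMod 2) = 2 ^ (2 * 0 + 1) := by rw [ZMod.card]; norm_num
  have hz : ∀ x : ZMod 2, x = 0 ∨ x = 1 := by decide
  obtain ⟨φ, hφ⟩ := exists_rln hK0
  exact TwF4_false_index_two (full hK0 hφ) (all_inv hK0 hφ) Cfsg.Agent.S1074.result.1 hz F e

end Cfsg.Agent.H204.RI
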